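import Mathlib.Analysis.Complex.Basic
import Mathlib.LinearAlgebra.Finsupp.LinearCombination
import Mathlib.Algebra.Algebra.Bilinear
import Mathlib.Algebra.Order.BigOperators.Ring.Finset
import Mathlib.Tactic

/-! An algebra of functions with a nearly closed multiplication. -/

set_option autoImplicit false
set_option linter.unusedVariables false
set_option linter.unusedSectionVars false

namespace GSz

open scoped ComplexConjugate

structure Alg {X I : Type*} [Fintype X] [Fintype I] [DecidableEq I] (ν : X → ℝ) (o : X)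
    (φ : I → X → ℂ) (st : I → I) (N : ℝ) : Prop where
  pos : ∀ x, 0 < ν x
  one : ν o = 1
  at_o : ∀ u, φ u o = 1
  ne : ∀ u x, φ u x ≠ 0
  lt : ∀ u x, x ≠ o → ‖φ u x‖ < 1
  cj : ∀ u x, φ (st u) x = conj (φ u x)
  inv : ∀ u, st (st u) = u
  zero : ∀ u, ∑ x, (ν x : ℂ) * φ u x = 0
  orth : ∀ u v, ∑ x, (ν x : ℂ) * φ u x * conj (φ v x) = if u = v then (N : ℂ) else 0
  mul : ∀ u v, v ≠ st u →
    ∃ a : I → ℝ, (∀ w, 0 ≤ a w) ∧ ∀ x, φ u x * φ v x = ∑ w, (a w : ℂ) * φ w x
  card : (Fintype.card I : ℝ) + 1 ≤ N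

variable {X I : Type*} [Fintype X] [Fintype I] [DecidableEq I] {ν : X → ℝ} {o : X}
  {φ : I → X → ℂ} {st : I → I} {N : ℝ}

/-- the trilinear form -/
noncomputable def tau (ν : X → ℝ) (φ : I → X → ℂ) (u v t : I) : ℂ :=
  ∑ x, (ν x : ℂ) * (φ u x * φ v x * φ t x)

theorem tau_rot (u v t : I) : tau ν φ u v t = tau ν φ v t u :=
  Finset.sum_congr rfl fun x _ => by ring

theorem tau_swap (u v t : I) : tau ν φ u v t = tau ν φ u t v :=
  Finset.sum_congr rfl fun x _ => by ring

/-- the span -/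
noncomputable abbrev Sp (φ : I → X → ℂ) : Submodule ℂ (X → ℂ) := Submodule.span ℂ (Set.range φ)

theorem mem_Sp (u : I) : φ u ∈ Sp φ := Submodule.subset_span ⟨u, rfl⟩

namespace Alg

variable (h : Alg ν o φ st N)
include h

theorem N_pos : 0 < N := lt_of_lt_of_le (by positivity) h.card

theorem N_ne : (N : ℂ) ≠ 0 := by exact_mod_cast h.N_pos.ne'

theorem st_eq {u v : I} : u = st v ↔ v = st u :=
  ⟨fun e => by rw [e, h.inv], fun e => by rw [e, h.inv]⟩

theorem pair (c : I → ℂ) (t : I) :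
    ∑ x, (ν x : ℂ) * (∑ w, c w * φ w x) * conj (φ t x) = c t * N := by
  have : ∀ x, (ν x : ℂ) * (∑ w, c w * φ w x) * conj (φ t x) =
      ∑ w, c w * ((ν x : ℂ) * φ w x * conj (φ t x)) := fun x => by
    rw [Finset.mul_sum, Finset.sum_mul]
    exact Finset.sum_congr rfl fun w _ => by ring
  simp only [this]
  rw [Finset.sum_comm]
  simp only [← Finset.mul_sum, h.orth]
  simp

theorem coef {u v : I} {a : I → ℝ} (ha : ∀ x, φ u x * φ v x = ∑ w, (a w : ℂ) * φ w x) (t : I) :
    tau ν φ u v t = a (st t) * N := by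
  rw [← h.pair (fun w => (a w : ℂ)) (st t)]
  refine Finset.sum_congr rfl fun x _ => ?_
  rw [← ha, ← h.cj, h.inv]; ring

theorem mulA {u v : I} (huv : v ≠ st u) : φ u * φ v ∈ Sp φ := by
  obtain ⟨a, -, ha⟩ := h.mul u v huv
  have : φ u * φ v = ∑ w, (a w : ℂ) • φ w := by
    funext x; simp [ha, Finset.sum_apply]
  rw [this]
  exact Submodule.sum_mem _ fun w _ => Submodule.smul_mem _ _ (mem_Sp w)

theorem mul3 {u v : I} {a : I → ℝ} (ha : ∀ x, φ u x * φ v x = ∑ w, (a w : ℂ) * φ w x) (t : I) :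
    φ u * φ v * φ t - (a (st t) : ℂ) • (φ t * φ (st t)) ∈ Sp φ := by
  have : φ u * φ v * φ t - (a (st t) : ℂ) • (φ t * φ (st t)) =
      ∑ w ∈ Finset.univ.erase (st t), (a w : ℂ) • (φ w * φ t) := by
    funext x
    simp only [Pi.sub_apply, Pi.mul_apply, ha, Pi.smul_apply, smul_eq_mul, Finset.sum_apply]
    rw [← Finset.add_sum_erase _ _ (Finset.mem_univ (st t)), add_mul, Finset.sum_mul]
    simp only [mul_assoc]
    ring
  rw [this]
  exact Submodule.sum_mem _ fun w hw => Submodule.smul_mem _ _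
    (h.mulA fun e => (Finset.mem_erase.1 hw).1 (h.st_eq.1 e))

theorem link {u v t : I} (h1 : v ≠ st u) (h2 : t ≠ st v) (h3 : tau ν φ u v t ≠ 0) :
    φ t * φ (st t) - φ u * φ (st u) ∈ Sp φ := by
  obtain ⟨a, -, ha⟩ := h.mul u v h1
  obtain ⟨b, -, hb⟩ := h.mul v t h2
  have e1 := h.coef ha t
  have e2 := h.coef hb u
  rw [← tau_rot, e1] at e2
  have e3 : (a (st t) : ℂ) = b (st u) := mul_right_cancel₀ h.N_ne e2
  have c0 : (a (st t) : ℂ) ≠ 0 := fun e => h3 (by rw [e1, e, zero_mul])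
  have := Submodule.smul_mem _ (a (st t) : ℂ)⁻¹ (Submodule.sub_mem _ (h.mul3 hb u) (h.mul3 ha t))
  convert this using 1
  funext x
  simp only [Pi.sub_apply, Pi.mul_apply, Pi.smul_apply, smul_eq_mul, ← e3]
  field_simp
  ring

theorem dich {u v : I} (h1 : v ≠ st u) (h2 : u ≠ v) :
    φ v * φ (st v) - φ u * φ (st u) ∈ Sp φ ∨ ∃ a b : ℝ, 0 ≤ a ∧ 0 ≤ b ∧ a + b = 1 ∧
      (∀ x, φ u x * φ v x = a * φ u x + b * φ v x) ∧ tau ν φ u v (st u) = a * N := by
  obtain ⟨a, a0, ha⟩ := h.mul u v h1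
  by_cases hc : ∀ w, w ≠ u → w ≠ v → a w = 0
  · have e : ∀ x, φ u x * φ v x = a u * φ u x + a v * φ v x := fun x => by
      rw [ha, ← Finset.sum_subset (Finset.subset_univ {u, v}), Finset.sum_pair h2]
      intro w _ hw
      simp only [Finset.mem_insert, Finset.mem_singleton, not_or] at hw
      rw [hc w hw.1 hw.2]; simp
    refine Or.inr ⟨a u, a v, a0 _, a0 _, ?_, e, by rw [h.coef ha, h.inv]⟩
    have := e o
    rw [h.at_o, h.at_o] at this
    exact_mod_cast (by linear_combination -this : (a u : ℂ) + a v = 1)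
  · push Not at hc
    obtain ⟨w, w1, w2, w3⟩ := hc
    refine Or.inl (h.link (v := st w) (fun e => w1 ?_) (fun e => w2 ?_) ?_)
    · rw [← h.inv w, e, h.inv]
    · rw [e, h.inv]
    · rw [tau_swap, h.coef ha, h.inv]
      exact mul_ne_zero (by exact_mod_cast w3) h.N_ne

theorem exists_ne (u : I) : ∃ x, x ≠ o := by
  by_contra hc
  push Not at hc
  have := h.zero u
  rw [Finset.sum_eq_single o (fun x _ e => (e (hc x)).elim) (by simp), h.one, h.at_o] at this
  simp at this

theorem exists_nonreal {v : I} (hv : st v ≠ v) : ∃ x, conj (φ v x) ≠ φ v x := by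
  by_contra hc
  push Not at hc
  have e1 := h.orth v v
  have e2 := h.orth (st v) v
  simp only [h.cj, hc] at e1 e2
  rw [if_neg hv, e1, if_pos trivial] at e2
  exact h.N_ne e2

theorem link_nonreal (hn : ∀ u, st u ≠ u) (u v : I) :
    φ v * φ (st v) - φ u * φ (st u) ∈ Sp φ := by
  by_cases e1 : u = v
  · simp [e1]
  by_cases e2 : v = st u
  · rw [e2, h.inv, mul_comm]; simp
  rcases h.dich e2 e1 with h1 | ⟨a, b, a0, b0, ab, h1, t1⟩
  · exact h1
  rcases h.dich (u := u) (v := st v) (fun e => e1 (by rw [← h.inv u, ← e, h.inv]))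
    (fun e => e2 (h.st_eq.1 e)) with h2 | ⟨a', b', -, -, ab', h2, t2⟩
  · rwa [h.inv, mul_comm] at h2
  exfalso
  have e3 : a' = a := by
    have : conj (tau ν φ u v (st u)) = tau ν φ u (st v) (st u) := by
      simp only [tau, map_sum, map_mul, Complex.conj_ofReal, h.cj, Complex.conj_conj]
      exact Finset.sum_congr rfl fun x _ => by ring
    rw [t1, t2, map_mul, Complex.conj_ofReal, Complex.conj_ofReal] at this
    exact_mod_cast (mul_right_cancel₀ h.N_ne this).symm
  have e4 : b' = b := by linarith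
  subst e3 e4
  obtain ⟨x, hx⟩ := h.exists_nonreal (hn v)
  obtain ⟨y, hy⟩ := h.exists_nonreal (hn u)
  have k1 : φ u x = b' := by
    have := h2 x
    rw [h.cj] at this
    have e : (φ u x - b') * (conj (φ v x) - φ v x) = 0 := by linear_combination this - h1 x
    exact sub_eq_zero.1 ((mul_eq_zero.1 e).resolve_right (sub_ne_zero.2 hx))
  have k2 : φ v y = a' := by
    have := congrArg conj (h2 y)
    simp only [h.cj, map_mul, map_add, Complex.conj_ofReal, Complex.conj_conj] at this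
    have e : (φ v y - a') * (conj (φ u y) - φ u y) = 0 := by linear_combination this - h1 y
    exact sub_eq_zero.1 ((mul_eq_zero.1 e).resolve_right (sub_ne_zero.2 hy))
  have k3 : (a' : ℂ) * b' = 0 := by
    have := h1 x
    rw [k1] at this
    linear_combination -this
  rcases mul_eq_zero.1 k3 with e | e
  · exact h.ne v y (k2.trans e)
  · exact h.ne u x (k1.trans e)

omit h in
theorem hyperb {a b z y : ℝ} (ha : 1 / 2 ≤ a) (hb : 0 ≤ b) (hab : a + b = 1) (z1 : -1 < z)
    (z2 : z < 1) (y2 : y < 1) (z0 : z ≠ 0) (e : z * y = a * z + b * y) :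
    z ^ 2 + 3 * (z * y) < 0 := by
  have zb : z < b := by
    by_contra hc
    push Not at hc
    have zp : 0 < z := lt_of_le_of_ne (hb.trans hc) z0.symm
    rcases hc.eq_or_lt with e1 | e1
    · rw [← e1] at e zp; nlinarith
    · have : (z - b) * (1 - y) > 0 := mul_pos (by linarith) (by linarith)
      nlinarith
  have z3 : 0 < z ^ 2 := by positivity
  have : (b - z) * (z ^ 2 + 3 * (z * y)) = z ^ 2 * (b - z - 3 * a) := by
    linear_combination (-3 * z) * e
  have h2 : z ^ 2 * (b - z - 3 * a) < 0 := mul_neg_of_pos_of_neg z3 (by linarith)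
  by_contra hc
  push Not at hc
  nlinarith [mul_nonneg (sub_pos.2 zb).le hc]

theorem real_bad (hr : ∀ u, st u = u) (h4 : 4 ≤ N) {u v : I} (huv : u ≠ v) {a b : ℝ}
    (ha : 1 / 2 ≤ a) (hb : 0 ≤ b) (hab : a + b = 1)
    (e : ∀ x, φ u x * φ v x = a * φ u x + b * φ v x) : False := by
  have re : ∀ w x, ((φ w x).re : ℂ) = φ w x := fun w x =>
    Complex.conj_eq_iff_re.1 (by rw [← h.cj, hr])
  have bd : ∀ w x, x ≠ o → -1 < (φ w x).re ∧ (φ w x).re < 1 := fun w x hx =>
    abs_lt.1 ((Complex.abs_re_le_norm _).trans_lt (h.lt w x hx))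
  have s1 : ∑ x, ν x * ((φ u x).re ^ 2 + 3 * ((φ u x).re * (φ v x).re)) = N := by
    have e1 := h.orth u u
    have e2 := h.orth u v
    rw [if_pos rfl] at e1
    rw [if_neg huv] at e2
    simp only [← h.cj, hr] at e1 e2
    have : ((∑ x, ν x * ((φ u x).re ^ 2 + 3 * ((φ u x).re * (φ v x).re)) : ℝ) : ℂ) = N := by
      push_cast
      simp only [re]
      rw [← add_zero (N : ℂ), ← mul_zero (3 : ℂ), ← e2, ← e1, Finset.mul_sum,
        ← Finset.sum_add_distrib]
      exact Finset.sum_congr rfl fun x _ => by ring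
    exact_mod_cast this
  classical
  rw [← Finset.add_sum_erase _ _ (Finset.mem_univ o), h.one, h.at_o, h.at_o] at s1
  obtain ⟨x0, hx0⟩ := h.exists_ne u
  have s2 := Finset.sum_neg' (s := Finset.univ.erase o)
    (f := fun x => ν x * ((φ u x).re ^ 2 + 3 * ((φ u x).re * (φ v x).re))) ?_ ?_
  · simp only [Complex.one_re] at s1
    linarith
  all_goals
    have k : ∀ x, x ≠ o → ν x * ((φ u x).re ^ 2 + 3 * ((φ u x).re * (φ v x).re)) < 0 :=
      fun x hx => mul_neg_of_pos_of_neg (h.pos x) (hyperb ha hb hab (bd u x hx).1 (bd u x hx).2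
        (bd v x hx).2 (fun e => h.ne u x (by rw [← re, e]; simp)) (by
          have := e x
          rw [← re u, ← re v] at this
          exact_mod_cast this))
  · exact fun x hx => (k x (Finset.mem_erase.1 hx).1).le
  · exact ⟨x0, by simp [hx0], k x0 hx0⟩

theorem link_real (hr : ∀ u, st u = u) (h4 : 4 ≤ N) (u v : I) :
    φ v * φ (st v) - φ u * φ (st u) ∈ Sp φ := by
  by_cases e1 : u = v
  · simp [e1]
  refine (h.dich (by rw [hr]; exact Ne.symm e1) e1).resolve_right ?_
  rintro ⟨a, b, a0, b0, ab, h1, -⟩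
  by_cases ha : 1 / 2 ≤ a
  · exact h.real_bad hr h4 e1 ha b0 ab h1
  · exact h.real_bad hr h4 (Ne.symm e1) (a := b) (b := a) (by linarith) a0 (by linarith)
      fun x => by linear_combination h1 x

theorem E_zero {f : X → ℂ} (hf : f ∈ Sp φ) : ∑ x, (ν x : ℂ) * f x = 0 := by
  obtain ⟨c, rfl⟩ := (Submodule.mem_span_range_iff_exists_fun ℂ).1 hf
  simp only [Finset.sum_apply, Pi.smul_apply, smul_eq_mul, Finset.mul_sum]
  rw [Finset.sum_comm]
  refine Finset.sum_eq_zero fun w _ => ?_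
  rw [← mul_zero (c w), ← h.zero w, Finset.mul_sum]
  exact Finset.sum_congr rfl fun x _ => by ring

theorem final (u0 : I) (hl : ∀ u v, φ v * φ (st v) - φ u * φ (st u) ∈ Sp φ)
    (h2 : ∀ v, ∃ u, u ≠ st v) : False := by
  classical
  set q := φ u0 * φ (st u0) with hq
  let B : Submodule ℂ (X → ℂ) := Submodule.span ℂ (insert q (Set.range φ))
  have AB : Sp φ ≤ B := Submodule.span_mono (Set.subset_insert _ _)
  have qB : q ∈ B := Submodule.subset_span (Set.mem_insert _ _)
  have m1 : ∀ v w, φ v * φ w ∈ B := fun v w => by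
    by_cases e : w = st v
    · have := B.add_mem (AB (hl u0 v)) qB
      rwa [sub_add_cancel, ← e] at this
    · exact AB (h.mulA e)
  have m2 : ∀ v, ∀ f ∈ Sp φ, φ v * f ∈ B := fun v f hf =>
    (Submodule.span_le (p := B.comap (LinearMap.mulLeft ℂ (φ v)))).2
      (by rintro _ ⟨w, rfl⟩; exact m1 v w) hf
  have m3 : ∀ v, ∀ f ∈ B, φ v * f ∈ B := fun v f hf =>
    (Submodule.span_le (p := B.comap (LinearMap.mulLeft ℂ (φ v)))).2 (by
      rintro _ (rfl | ⟨w, rfl⟩)
      · obtain ⟨u, hu⟩ := h2 v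
        have := B.add_mem (m2 v _ (hl u u0)) (m2 (st u) _ (h.mulA hu))
        change φ v * q ∈ B
        convert this using 1
        ring
      · exact m1 v w) hf
  have o1 : ∀ T : Finset X, 1 - ∏ y ∈ T, (1 - (φ u0 y)⁻¹ • φ u0) ∈ B := fun T => by
    induction T using Finset.induction_on with
    | empty => simp
    | insert y T hy ih =>
      rw [Finset.prod_insert hy]
      have := B.add_mem ih (B.smul_mem (φ u0 y)⁻¹ (B.sub_mem (AB (mem_Sp u0)) (m3 u0 _ ih)))
      convert this using 1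
      simp only [smul_sub, mul_sub, sub_mul, smul_mul_assoc, mul_one, one_mul]
      abel
  have o2 : (1 : X → ℂ) ∈ B := by
    have := o1 Finset.univ
    rwa [show ∏ y, (1 - (φ u0 y)⁻¹ • φ u0) = 0 from funext fun x => by
      rw [Finset.prod_apply]
      exact Finset.prod_eq_zero (Finset.mem_univ x) (by simp [h.ne]), sub_zero] at this
  have n1 : ∀ y, y ≠ o → 1 - φ u0 y ≠ 0 := fun y hy e => by
    have := h.lt u0 y hy
    rw [← sub_eq_zero.1 e] at this
    simp at this
  have d1 : ∀ T : Finset X, ∏ y ∈ T, (1 - φ u0 y)⁻¹ • (φ u0 - φ u0 y • (1 : X → ℂ)) ∈ B :=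
    fun T => by
    induction T using Finset.induction_on with
    | empty => simpa using o2
    | insert y T hy ih =>
      rw [Finset.prod_insert hy, smul_mul_assoc, sub_mul, smul_mul_assoc, one_mul]
      exact B.smul_mem _ (B.sub_mem (m3 u0 _ ih) (B.smul_mem _ ih))
  have d2 : Pi.single o (1 : ℂ) ∈ B := by
    convert d1 (Finset.univ.erase o) using 1
    funext x
    rw [Finset.prod_apply]
    by_cases hx : x = o
    · subst hx
      rw [Pi.single_eq_same, Finset.prod_eq_one]
      intro y hy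
      simp [h.at_o, inv_mul_cancel₀ (n1 y (Finset.mem_erase.1 hy).1)]
    · rw [Pi.single_eq_of_ne hx]
      exact (Finset.prod_eq_zero (i := x) (by simp [hx]) (by simp)).symm
  obtain ⟨c1, f1, hf1, e1⟩ := Submodule.mem_span_insert.1 o2
  obtain ⟨c2, f2, hf2, e2⟩ := Submodule.mem_span_insert.1 d2
  have Dp : 0 < ∑ x, ν x := Finset.sum_pos (fun x _ => h.pos x) ⟨o, Finset.mem_univ o⟩
  have c0 : c1 ≠ 0 := fun e => by
    rw [e, zero_smul, zero_add] at e1
    have := h.E_zero (e1 ▸ hf1)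
    simp only [Pi.one_apply, mul_one] at this
    exact Dp.ne' (by exact_mod_cast this)
  have d3 : Pi.single o (1 : ℂ) - (c2 / c1) • (1 : X → ℂ) ∈ Sp φ := by
    have := Submodule.sub_mem _ hf2 (Submodule.smul_mem _ (c2 / c1) hf1)
    convert this using 1
    rw [e2, e1, smul_add, smul_smul, div_mul_cancel₀ _ c0]
    abel
  generalize c2 / c1 = c at d3
  have k1 : c * (∑ x, ν x : ℝ) = 1 := by
    have := h.E_zero d3
    simp only [Pi.sub_apply, Pi.smul_apply, Pi.one_apply, smul_eq_mul, mul_one, mul_sub,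
      Finset.sum_sub_distrib, ← Finset.sum_mul] at this
    rw [Finset.sum_eq_single o (fun x _ e => by simp [e]) (by simp), h.one] at this
    simp only [Complex.ofReal_one, Pi.single_eq_same, mul_one] at this
    push_cast
    linear_combination -this
  obtain ⟨a, ha⟩ := (Submodule.mem_span_range_iff_exists_fun ℂ).1 d3
  have ha' : ∀ x, ∑ w, a w * φ w x = (Pi.single o (1 : ℂ) : X → ℂ) x - c := fun x => by
    simpa [Finset.sum_apply] using congrFun ha x
  have k2 : ∀ t, a t * N = 1 := fun t => by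
    rw [← h.pair a t]
    simp only [ha', mul_sub, sub_mul, Finset.sum_sub_distrib]
    rw [Finset.sum_eq_single o (fun x _ e => by simp [e]) (by simp), h.one, h.at_o]
    have : ∑ x, (ν x : ℂ) * c * conj (φ t x) = c * ∑ x, (ν x : ℂ) * φ (st t) x := by
      rw [Finset.mul_sum]
      exact Finset.sum_congr rfl fun x _ => by rw [h.cj]; ring
    rw [this, h.zero]
    simp
  have k3 : (1 - c) * N = Fintype.card I := by
    have := ha' o
    simp only [h.at_o, mul_one, Pi.single_eq_same] at this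
    rw [← this, Finset.sum_mul]
    simp [k2]
  have k4 : N < ∑ x, ν x := by
    have e := h.orth u0 u0
    rw [if_pos rfl] at e
    have : ((∑ x, ν x * ‖φ u0 x‖ ^ 2 : ℝ) : ℂ) = N := by
      rw [← e]
      push_cast
      exact Finset.sum_congr rfl fun x _ => by rw [mul_assoc, Complex.mul_conj']
    rw [← Complex.ofReal_inj.1 this]
    obtain ⟨x0, hx0⟩ := h.exists_ne u0
    refine Finset.sum_lt_sum (fun x _ => mul_le_of_le_one_right (h.pos x).le ?_)
      ⟨x0, Finset.mem_univ _, mul_lt_of_lt_one_right (h.pos _)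
        (pow_lt_one₀ (norm_nonneg _) (h.lt _ _ hx0) two_ne_zero)⟩
    by_cases hx : x = o
    · simp [hx, h.at_o]
    · exact pow_le_one₀ (norm_nonneg _) (h.lt _ _ hx).le
  have k5 : ((∑ x, ν x) - 1) * N = Fintype.card I * ∑ x, ν x := by
    have : (((∑ x, ν x : ℝ) : ℂ) - 1) * N = Fintype.card I * (∑ x, ν x : ℝ) := by
      linear_combination ((∑ x, ν x : ℝ) : ℂ) * k3 + N * k1
    exact_mod_cast this
  nlinarith [h.card, h.N_pos]

theorem nonreal (u0 : I) (hn : ∀ u, st u ≠ u) : False :=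
  h.final u0 (h.link_nonreal hn) fun v => ⟨v, (hn v).symm⟩

theorem real (hr : ∀ u, st u = u) (h4 : 4 ≤ N) {u v : I} (huv : u ≠ v) : False :=
  h.final u (h.link_real hr h4) fun w => by
    rw [hr]
    by_cases e : u = w
    · exact ⟨v, e ▸ huv.symm⟩
    · exact ⟨u, e⟩

end Alg

end GSz
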