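import Cfsg.Agent.GW.L1
import Cfsg.Agent.L.Block3
import Cfsg.Agent.H5.Constr
import Cfsg.Agent.H7.NPCFunctor

/-! Strongly closed central subgroups and pairs of conjugates. -/

set_option autoImplicit false
set_option linter.unusedVariables false
set_option linter.unusedSectionVars false

namespace GSz

open Cfsg Subgroup FT H4 H5 GW
open L (PElt Reg)
open H7 (NPC)

variable {G : Type*} [Group G] [Finite G] {p : ℕ} [hp : Fact p.Prime]
  {P W K N R Q : Subgroup G} {x y g w r e : G}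

theorem exists_ord (hQ : IsPGroup p Q) (hx : x ∈ Q) (x1 : x ≠ 1) :
    ∃ n : ℕ, orderOf (x ^ n) = p := by
  obtain ⟨k, hk⟩ := IsPGroup.iff_orderOf.1 hQ ⟨x, hx⟩
  rw [← Subgroup.orderOf_coe] at hk
  replace hk : orderOf x = p ^ k := hk
  rcases k with _ | k
  · exact (x1 (by simpa using hk)).elim
  · refine ⟨p ^ k, ?_⟩
    rw [orderOf_pow, hk, Nat.gcd_eq_right (pow_dvd_pow p k.le_succ), pow_succ,
      Nat.mul_div_cancel_left _ (pow_pos hp.out.pos k)]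

/-- a `p'`-element acts trivially or without fixed points -/
theorem fpf (hb : ∀ x : G, orderOf x = p → NPC p (Cen1 x)) (hQ : IsPGroup p Q) (he : e ∈ Nor Q)
    (hc : (orderOf e).Coprime p) (hx : x ∈ Q) (x1 : x ≠ 1) (hex : e ∈ Cen1 x) : e ∈ Cen Q := by
  have k : ∀ y ∈ Q, y ≠ 1 → e ∈ Cen1 y → ∀ z ∈ Q, z ∈ Cen1 y → e ∈ Cen1 z :=
    fun y hy y1 hey z hz hzy => by
    obtain ⟨n, hn⟩ := exists_ord hQ hy y1
    have m : ∀ a ∈ Cen1 y, a ∈ Cen1 (y ^ n) := fun a ha => c1c.2 ((c1c.1 ha).pow_right n)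
    exact c1.2 (cen.1 ((hb _ hn).mem_centralizer (U := Q ⊓ Cen1 (y ^ n)) (hQ.to_le inf_le_left)
      inf_le_right (m e hey) (minf he (mc1 (m e hey))) hc) z ⟨hz, m z hzy⟩)
  obtain ⟨z, h1, h2, h3⟩ := exists_mem_center_of_isNilpotent hQ.isNilpotent le_rfl le_normalizer
    fun e => x1 (mem_bot.1 (e ▸ hx))
  exact cen.2 fun y hy => c1.1 (k z h1 h2 (k x hx x1 hex z h1 (c1.2 (cen.1 h3 x hx))) y hy
    (c1.2 (cen.1 h3 y hy).symm))

/-- `g` lies in the `p`-section of `w` -/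
def Sec (p : ℕ) (g w : G) : Prop :=
  ∃ u s, PElt p u ∧ Reg p s ∧ Commute u s ∧ g = u * s ∧ IsConj u w

theorem Sec.conj (h : Sec p g w) (c : G) : Sec p g (c * w * c⁻¹) := by
  obtain ⟨u, s, h1, h2, h3, h4, h5⟩ := h
  exact ⟨u, s, h1, h2, h3, h4, h5.trans (isConj_iff.2 ⟨c, rfl⟩)⟩

theorem exists_conj_mem (h2 : K ≤ Nor N) (h4 : ∀ h ∈ K, ∃ k, h ^ p ^ k ∈ N)
    (hR : IsSylowOf p R K) (hx : x ∈ K) (x2 : PElt p x) : ∃ o ∈ N, o⁻¹ * x * o ∈ R := by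
  obtain ⟨k, hk, h⟩ := hR.exists_conj_le x2.isPGroup_zpowers (zpowers_le.2 hx)
  obtain ⟨o, ho, s, hs, e⟩ := (H4.mem_sup_of_le_normalizer_left (hR.le.trans h2)).1
    (H7.le_sup_sylow h2 h4 hR (inv_mem hk))
  refine ⟨o, ho, H5.mem_of_eq (mul_mem (mul_mem hs (h (conj_mem_conjS (mem_zpowers x))))
    (inv_mem hs)) ?_⟩
  rw [← inv_inv k, ← e]; group

theorem sec_of (h1 : N ≤ K) (h2 : K ≤ Nor N) (h3 : (Nat.card N).Coprime p)
    (h4 : ∀ h ∈ K, ∃ k, h ^ p ^ k ∈ N) (hR : IsSylowOf p R K) (hg : g ∈ K) (hr : r ∈ R)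
    (h : g * r⁻¹ ∈ N) : Sec p g r := by
  obtain ⟨u, s, u1, s1, c, e, u2, s2⟩ := L.exists_decomp (p := p) g
  have s3 : s ∈ N := by
    obtain ⟨k, hk⟩ := h4 s (zpowers_le.2 hg s2)
    exact H4.mem_of_pow_mem_of_coprime hk (Nat.Coprime.pow_right k s1)
  have u3 := zpowers_le.2 hg u2
  obtain ⟨o, ho, h5⟩ := exists_conj_mem h2 h4 hR u3 u1
  have h6 : o⁻¹ * u * o * r⁻¹ ∈ N ⊓ R := ⟨H5.mem_of_eq (mul_mem (mul_mem (inv_mem ho)
    (cmem (h2 u3) ho)) (mul_mem (cmem (h2 hg) (inv_mem s3)) h)) (by rw [e]; group),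
    R.mul_mem h5 (R.inv_mem hr)⟩
  rw [eq_bot_of_pGroup_coprime (hR.isPGroup.to_le inf_le_right)
    (Nat.Coprime.coprime_dvd_left (card_dvd_of_le inf_le_left) h3), mem_bot, mul_inv_eq_one] at h6
  exact ⟨u, s, u1, s1, c, e, isConj_iff.2 ⟨o⁻¹, by rw [inv_inv, h6]⟩⟩

theorem npc_of_gen (hc : IsPConstrained p G) {S : Set G} (hS : closure S = ⊤)
    (h : ∀ z ∈ S, ∃ R, IsSylowOf p R ⊤ ∧ R ≤ Cen1 z) : NPC p (⊤ : Subgroup G) := by
  let f := QuotientGroup.mk' (pPrimeCore p G)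
  have hf : Function.Surjective f := QuotientGroup.mk'_surjective _
  have k : (⊤ : Subgroup G) ≤ (pCore p _).comap f := by
    rw [← hS, closure_le]
    intro z hz
    obtain ⟨R, hR, hz'⟩ := h z hz
    refine isPConstrained_iff.1 hc (cen.2 fun a ha => ?_)
    obtain ⟨b, hb, rfl⟩ := (H7.isSylowOf_map_top hf hR).le_of_le_normalizer (isPGroup_pCore p _)
      le_top (by rw [normalizer_eq_top]; exact le_top) ha
    rw [← map_mul, ← map_mul, c1.1 (hz' hb)]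
  refine ⟨pPrimeCore p G, le_top, by rw [normalizer_eq_top], coprime_card_pPrimeCore p G,
    fun a ha => ?_⟩
  obtain ⟨n, hn⟩ := isPGroup_pCore p _ ⟨f a, k ha⟩
  refine ⟨n, ?_⟩
  rw [← QuotientGroup.eq_one_iff]
  exact (map_pow f a _).trans (congrArg Subtype.val hn)

/-- a strongly closed subgroup of exponent `p` in the centre of a Sylow subgroup -/
structure SW (p : ℕ) (P W : Subgroup G) : Prop where
  syl : IsSylowOf p P ⊤
  le : W ≤ P
  cen : W ≤ Cen P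
  exp : ∀ w ∈ W, w ^ p = 1
  sc : ∀ w ∈ W, ∀ g, g * w * g⁻¹ ∈ P → g * w * g⁻¹ ∈ W
  npc : ∀ x : G, orderOf x = p → NPC p (Cen1 x)

/-- pairs of elements of order `p` generate `p`-solvable groups -/
def PS (p : ℕ) (G : Type*) [Group G] : Prop :=
  ∀ x y : G, orderOf x = p → orderOf y = p → IsPSolvable p (closure ({x, y} : Set G))

namespace SW

variable (h : SW p P W)
include h

theorem ord (hw : w ∈ W) (w1 : w ≠ 1) : orderOf w = p := orderOf_eq_prime (h.exp w hw) w1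

theorem pelt (hw : w ∈ W) : PElt p w := L.PElt_of_mem h.syl.isPGroup (h.le hw)

theorem le_c1 (hw : w ∈ W) : P ≤ Cen1 w := cen_iff_le.1 (h.cen hw)

theorem into (hR : IsPGroup p R) : ∃ c : G, ∀ x ∈ R, c * x * c⁻¹ ∈ P ∧
    ∀ w ∈ W, IsConj w x → c * x * c⁻¹ ∈ W := by
  obtain ⟨c, -, hc⟩ := h.syl.exists_conj_le hR le_top
  refine ⟨c, fun x hx => ⟨hc (conj_mem_conjS hx), fun w hw e => ?_⟩⟩
  obtain ⟨d, rfl⟩ := isConj_iff.1 e
  exact H5.mem_of_eq (h.sc w hw (c * d) (H5.mem_of_eq (hc (conj_mem_conjS hx)) (by group)))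
    (by group)

theorem le_c1' (hR : IsPGroup p R) (hw : w ∈ W) (e : IsConj w x) (hx : x ∈ R) : R ≤ Cen1 x := by
  obtain ⟨c, hc⟩ := h.into hR
  intro y hy
  have := c1.1 (h.le_c1 ((hc x hx).2 w hw e) (hc y hy).1)
  refine c1.2 ?_
  calc y * x = c⁻¹ * (c * y * c⁻¹ * (c * x * c⁻¹)) * c := by group
    _ = x * y := by rw [this]; group

/-- Burnside's fusion lemma -/
theorem fus (hw : w ∈ W) (hx : x ∈ W) (e : IsConj w x) : ∃ n ∈ Nor P, n * w * n⁻¹ = x := by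
  obtain ⟨g, rfl⟩ := isConj_iff.1 e
  have h1 := (h.syl.map_conj (g := g) (by rw [normalizer_eq_top]; trivial)).of_le
    ((conjS_mono g (h.le_c1 hw)).trans (conj_c1 g w).le) le_top
  obtain ⟨c, hc, e⟩ := h1.exists_conj (h.syl.of_le (h.le_c1 hx) le_top)
  refine ⟨c * g, mem_normalizer_iff_conjS.2 ((conjS_conjS c g P).symm.trans e), ?_⟩
  rw [← c1'.1 hc]; group

theorem pair (hc : PS p G) {u v : G} (hu : u ∈ W) (u1 : u ≠ 1) (hv : v ∈ W) (v1 : v ≠ 1)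
    (ex : IsConj u x) (ey : IsConj v y) : ∃ x0 ∈ W, ∃ y0 ∈ W, IsConj x x0 ∧ IsConj y y0 ∧
      Sec p (x * y) (x0 * y0) ∧ Sec p (x * y⁻¹) (x0 * y0⁻¹) := by
  have ox : orderOf x = p := by
    obtain ⟨c, rfl⟩ := isConj_iff.1 ex; rw [oconj, h.ord hu u1]
  have oy : orderOf y = p := by
    obtain ⟨c, rfl⟩ := isConj_iff.1 ey; rw [oconj, h.ord hv v1]
  have px : PElt p x := L.PElt_of_orderOf (k := 1) (by rw [ox, pow_one])
  have py : PElt p y := L.PElt_of_orderOf (k := 1) (by rw [oy, pow_one])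
  set K := closure ({x, y} : Set G)
  have hx : x ∈ K := subset_closure (by simp)
  have hy : y ∈ K := subset_closure (by simp)
  have k : ∀ z ∈ K, ∀ w ∈ W, IsConj w z → PElt p z → ∃ R, IsSylowOf p R K ∧ z ∈ R ∧ R ≤ Cen1 z :=
    fun z hz w hw e pz => by
    obtain ⟨R, hR, h1⟩ := exists_isSylowOf_ge pz.isPGroup_zpowers (zpowers_le.2 hz)
    exact ⟨R, hR, h1 (mem_zpowers z), h.le_c1' hR.isPGroup hw e (h1 (mem_zpowers z))⟩
  have nK : NPC p K := by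
    refine H7.npc_top_iff.1 (npc_of_gen (isPConstrained_of_isPSolvable (hc x y ox oy))
      (S := K.subtype ⁻¹' {x, y}) (closure_closure_coe_preimage) fun z hz => ?_)
    have : ∃ R, IsSylowOf p R K ∧ (z : G) ∈ R ∧ R ≤ Cen1 (z : G) := by
      rcases hz with e | e
      · rw [show (z : G) = x from e]; exact k x hx u hu ex px
      · rw [show (z : G) = y from e]; exact k y hy v hv ey py
    obtain ⟨R, hR, -, h1⟩ := this
    refine ⟨R.subgroupOf K, ?_, fun a ha => c1.2 (Subtype.ext (c1.1 (h1 ha)))⟩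
    have := hR.subgroupOf le_rfl
    rwa [subgroupOf_self] at this
  obtain ⟨N, n1, n2, n3, n4⟩ := nK
  obtain ⟨R, hR, xR, -⟩ := k x hx u hu ex px
  obtain ⟨o, ho, yR⟩ := exists_conj_mem n2 n4 hR hy py
  obtain ⟨c, hc'⟩ := h.into hR.isPGroup
  have ey' : IsConj y (o⁻¹ * y * o) := isConj_iff.2 ⟨o⁻¹, by rw [inv_inv]⟩
  refine ⟨_, (hc' x xR).2 u hu ex, _, (hc' _ yR).2 v hv (ey.trans ey'), isConj_iff.2 ⟨c, rfl⟩,
    ey'.trans (isConj_iff.2 ⟨c, rfl⟩), ?_, ?_⟩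
  · convert (sec_of n1 n2 n3 n4 hR (mul_mem hx hy) (mul_mem xR yR) (H5.mem_of_eq
      (cmem (n2 hx) (mul_mem (cmem (n2 hy) (inv_mem ho)) ho)) (by group))).conj c using 1
    group
  · convert (sec_of n1 n2 n3 n4 hR (mul_mem hx (inv_mem hy)) (mul_mem xR (inv_mem yR))
      (H5.mem_of_eq (cmem (n2 hx) (mul_mem (cmem' (n2 hy) (inv_mem ho)) ho))
        (by group))).conj c using 1
    group

theorem inverts (hp2 : p ≠ 2) (hw : w ∈ W) (w1 : w ≠ 1) (e : IsConj w w⁻¹) :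
    ∃ i : G, ∀ x ∈ P, i * x * i⁻¹ = x⁻¹ := by
  obtain ⟨n, hn, e⟩ := h.fus hw (inv_mem hw) e
  obtain ⟨a, b, a1, b1, c, e1, a2, b2⟩ := L.exists_decomp (p := 2) n
  have ww : w⁻¹ ≠ w := fun e => by
    have := orderOf_dvd_of_pow_eq_one (x := w) (n := 2) (by rw [sq]; nth_rw 1 [← e]; simp)
    rw [h.ord hw w1] at this
    exact hp2 ((Nat.prime_dvd_prime_iff_eq hp.out Nat.prime_two).1 this)
  have n2 : n * n ∈ Cen1 w := c1'.2 (by
    calc n * n * w * (n * n)⁻¹ = n * (n * w * n⁻¹) * n⁻¹ := by group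
      _ = (n * w * n⁻¹)⁻¹ := by nth_rw 1 [e]; group
      _ = w := by rw [e, inv_inv])
  have b3 : b ∈ Cen1 w := by
    obtain ⟨k, rfl⟩ := b2
    refine GW.mem_of_sq_mem (odd_iff_cop.2 b1) (H5.mem_of_eq (zpow_mem n2 k) ?_)
    simp only [← sq, ← zpow_natCast, ← zpow_mul, mul_comm]
  have a3 : a ∉ Cen P := fun k => ww (by
    rw [← e, e1]
    exact c1'.1 (mul_mem (c1.2 (GW.cen.1 k w (h.le hw))) b3))
  obtain ⟨k, hk⟩ := a1
  have ex : ∃ j, a ^ 2 ^ j ∈ Cen P := ⟨k, by rw [hk]; exact one_mem _⟩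
  classical
  obtain ⟨j, hj⟩ := Nat.exists_eq_succ_of_ne_zero (n := Nat.find ex) fun e => a3 (by
    simpa [e] using Nat.find_spec ex)
  have i1 := Nat.find_min ex (m := j) (by omega)
  have i2 := Nat.find_spec ex
  rw [hj, Nat.succ_eq_add_one, pow_succ, pow_mul, sq] at i2
  have i3 : a ^ 2 ^ j ∈ Nor P := pow_mem (zpowers_le.2 hn a2) _
  have i4 : (orderOf (a ^ 2 ^ j)).Coprime p := by
    refine Nat.Coprime.coprime_dvd_left (orderOf_dvd_of_pow_eq_one (n := 2 ^ k) ?_)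
      (Nat.Coprime.pow_left k ((Nat.coprime_primes Nat.prime_two hp.out).2 hp2.symm))
    rw [← pow_mul, mul_comm, pow_mul, hk, one_pow]
  generalize a ^ 2 ^ j = i at i1 i2 i3 i4
  let f : P → P := fun x => ⟨(x : G)⁻¹ * (i * x * i⁻¹), mul_mem (inv_mem x.2) (cmem i3 x.2)⟩
  have fi : Function.Injective f := fun x y e => by
    replace e : (x : G)⁻¹ * (i * x * i⁻¹) = (y : G)⁻¹ * (i * y * i⁻¹) := congrArg Subtype.val e
    by_contra hxy
    refine i1 (fpf h.npc h.syl.isPGroup i3 i4 (mul_mem x.2 (inv_mem y.2))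
      (fun e => hxy (Subtype.ext (mul_inv_eq_one.1 e))) (c1'.2 ?_))
    calc i * (x * (y : G)⁻¹) * i⁻¹ = x * ((x : G)⁻¹ * (i * x * i⁻¹)) * (i * (y : G)⁻¹ * i⁻¹) := by
          group
      _ = x * (y : G)⁻¹ := by rw [e]; group
  refine ⟨i, fun x hx => ?_⟩
  obtain ⟨y, e⟩ := Finite.surjective_of_injective fi ⟨x, hx⟩
  replace e : (y : G)⁻¹ * (i * y * i⁻¹) = x := congrArg Subtype.val e
  rw [← e]
  calc i * ((y : G)⁻¹ * (i * y * i⁻¹)) * i⁻¹ = i * (y : G)⁻¹ * i⁻¹ * (i * i * y) * i⁻¹ * i⁻¹ := by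
        group
    _ = _ := by rw [GW.cen.1 i2 y y.2]; group

end SW

end GSz
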