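import Cfsg.Agent.GSz.A1
import Cfsg.Agent.GSz.A2
import Cfsg.Agent.H8.Blk

/-! The principal block on a strongly closed central subgroup. -/

set_option autoImplicit false
set_option linter.unusedVariables false
set_option linter.unusedSectionVars false

namespace GSz

open Cfsg Subgroup FT H4 H5 GW
open L (PElt Reg B0 KK)
open H7 (NPC)
open H8 (deg deg_eq deg_pos)
open scoped ComplexConjugate

variable {G : Type*} [Group G] [Fintype G] {p : ℕ} [hp : Fact p.Prime]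
  {P W : Subgroup G} {x y g w u v : G} {χ : IrrCharacter G}

theorem val_conj (χ : IrrCharacter G) (h : IsConj x y) : χ.1 x = χ.1 y :=
  H8.IsClassFunction_apply_of_isConj (L.irr_class χ) h

theorem deg_ne (χ : IrrCharacter G) : χ.1 1 ≠ 0 := H8.irr_apply_one_ne_zero χ.2

theorem sum2 (χ : IrrCharacter G) (u v : G) :
    ∑ ab : G × G, χ.1 (ab.1 * u * ab.1⁻¹ * (ab.2 * v * ab.2⁻¹)) =
      (Nat.card G : ℂ) ^ 2 * (χ.1 u * χ.1 v / χ.1 1) := by
  rw [Fintype.sum_prod_type, Finset.sum_comm]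
  simp only [L.sum_conj_mul, ← val_conj χ (isConj_iff.2 ⟨_, rfl⟩ : IsConj v (_ * v * _⁻¹))]
  rw [Finset.sum_const, Finset.card_univ, ← Nat.card_eq_fintype_card, nsmul_eq_mul]
  ring

theorem npc_pelt (hb : ∀ x : G, orderOf x = p → NPC p (Cen1 x)) (hu : PElt p u) (u1 : u ≠ 1) :
    NPC p (Cen1 u) := by
  obtain ⟨n, hn⟩ := exists_ord hu.isPGroup_zpowers (mem_zpowers u) u1
  exact (hb _ hn).mono fun a ha => c1c.2 ((c1c.1 ha).pow_right n)

theorem KK_one (hu : PElt p u) (u1 : u ≠ 1) : ∑ χ ∈ B0 p G, χ.1 u * χ.1 1 = 0 := by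
  rw [← L.KK_eq_zero' hu L.PElt_one (by simpa using u1)]
  exact Finset.sum_congr rfl fun χ _ => by rw [H8.conj_char_apply_one (H8.irr_isCharacter χ.2)]

theorem norm_lt [IsSimpleGroup G] (hG : ¬ IsMulCommutative G) (h1 : χ ≠ L.triv G) (u1 : u ≠ 1) :
    ‖χ.1 u‖ < ‖χ.1 1‖ :=
  lt_of_le_of_ne (H8.char_norm_le (H8.irr_isCharacter χ.2) u) fun e =>
    u1 (H8.irr_norm_ne_of_simple hG χ.2 (fun e => h1 (Subtype.ext e)) e)

namespace SW

variable (h : SW p P W)
include h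

theorem val_sec (hs : Sec p g w) (w1 : w ≠ 1) (hχ : χ ∈ B0 p G) : χ.1 g = χ.1 w := by
  obtain ⟨u, s, h1, h2, h3, rfl, h5⟩ := hs
  rw [L.B0_apply_of_complement h1 (H7.hasNormalPComplement_iff.2 (npc_pelt h.npc h1
    fun e => w1 (by simpa [e, eq_comm] using h5))) hχ h2 h3, val_conj χ h5]

theorem KK_self (hu : u ∈ P) (u1 : u ≠ 1) (hc : P ≤ Cen1 u) : KK p u u = Nat.card P := by
  have pu := L.PElt_of_mem h.syl.isPGroup hu
  obtain ⟨S, hS⟩ := (h.syl.of_le hc le_top).exists_sylow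
  rw [L.KK_self pu (H7.hasNormalPComplement_iff.2 (npc_pelt h.npc pu u1)) S, ← hS,
    card_map_of_injective (Subgroup.subtype_injective _)]

open Classical in
theorem KK_eq (hu : u ∈ P) (u1 : u ≠ 1) (hc : P ≤ Cen1 u) (hv : v ∈ P) :
    KK p u v = if IsConj u v then (Nat.card P : ℂ) else 0 := by
  split_ifs with e
  · rw [← h.KK_self hu u1 hc]
    exact Finset.sum_congr rfl fun χ _ => by rw [val_conj χ e]
  · exact L.KK_eq_zero' (L.PElt_of_mem h.syl.isPGroup hu) (L.PElt_of_mem h.syl.isPGroup hv) e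

theorem val_ne (hw : w ∈ W) (hχ : χ ∈ B0 p G) : χ.1 w ≠ 0 :=
  H8.B0_apply_ne_zero hχ fun e => h.syl.not_dvd (by
    rw [relIndex_top_right]; exact e.trans (index_dvd_of_le (h.le_c1 hw)))

end SW

/-- conjugacy on the non-trivial elements of `W` -/
def sd (W : Subgroup G) : Setoid {w : G // w ∈ W ∧ w ≠ 1} :=
  ⟨fun a b => IsConj a.1 b.1, fun _ => IsConj.refl _, IsConj.symm, IsConj.trans⟩

/-- the normalized character values -/
noncomputable def phi (p : ℕ) (W : Subgroup G) (c : Quotient (sd W)) (χ : B0 p G) : ℂ :=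
  Quotient.lift (fun w => χ.1.1 w.1 / χ.1.1 1) (fun a b e => by rw [val_conj _ e]) c

theorem isConj_inv (e : IsConj x y) : IsConj x⁻¹ y⁻¹ := by
  obtain ⟨c, rfl⟩ := isConj_iff.1 e
  exact isConj_iff.2 ⟨c, by group⟩

/-- inversion of classes -/
def stq (W : Subgroup G) : Quotient (sd W) → Quotient (sd W) :=
  Quotient.map (fun w => ⟨w.1⁻¹, inv_mem w.2.1, inv_ne_one.2 w.2.2⟩) fun a b e => isConj_inv e

theorem sum_fib {Y I : Type*} [Fintype Y] [Fintype I] [DecidableEq I] (c : Y → I) (f : I → ℂ) :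
    ∑ y, f (c y) = ∑ w, ((Finset.univ.filter fun y => c y = w).card : ℂ) * f w := by
  rw [← Finset.sum_fiberwise (g := c)]
  refine Finset.sum_congr rfl fun w _ => ?_
  rw [Finset.sum_congr rfl fun y hy => by rw [(Finset.mem_filter.1 hy).2], Finset.sum_const,
    nsmul_eq_mul]

theorem SW.alg [IsSimpleGroup G] (hG : ¬ IsMulCommutative G) (h : SW p P W) (hc : PS p G)
    [Fintype (Quotient (sd W))] [DecidableEq (Quotient (sd W))] :
    Alg (fun χ : B0 p G => (deg χ.1 : ℝ) ^ 2) ⟨L.triv G, L.triv_mem_B0⟩ (phi p W) (stq W)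
      (Nat.card P) := by
  have nu : ∀ χ : IrrCharacter G, (((deg χ : ℝ) ^ 2 : ℝ) : ℂ) = χ.1 1 * χ.1 1 := fun χ => by
    rw [deg_eq]; push_cast; ring
  have c1 := fun χ : IrrCharacter G => H8.conj_char_apply_one (H8.irr_isCharacter χ.2)
  refine ⟨fun χ => by have := deg_pos χ.1; positivity, ?_, ?_, ?_, ?_, ?_, ?_, ?_, ?_, ?_, ?_⟩
  · have := nu (L.triv G)
    simp only [L.triv_apply, mul_one] at this
    exact_mod_cast this
  · rintro ⟨u⟩
    change (L.triv G).1 _ / (L.triv G).1 _ = 1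
    simp
  · rintro ⟨u⟩ χ
    exact div_ne_zero (h.val_ne u.2.1 χ.2) (deg_ne _)
  · rintro ⟨u⟩ χ hχ
    change ‖χ.1.1 _ / χ.1.1 _‖ < 1
    rw [norm_div, div_lt_one (norm_pos_iff.2 (deg_ne _))]
    exact norm_lt hG (fun e => hχ (Subtype.ext e)) u.2.2
  · rintro ⟨u⟩ χ
    change χ.1.1 u.1⁻¹ / χ.1.1 _ = conj (χ.1.1 _ / χ.1.1 _)
    rw [map_div₀, c1, L.irr_conj_eq]
  · rintro ⟨u⟩
    exact Quotient.sound (by change IsConj u.1⁻¹⁻¹ u.1; rw [inv_inv])
  · rintro ⟨u⟩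
    rw [← KK_one (h.pelt u.2.1) u.2.2, ← Finset.sum_coe_sort (B0 p G)]
    refine Finset.sum_congr rfl fun χ _ => ?_
    change _ * (χ.1.1 _ / χ.1.1 _) = _
    have := deg_ne χ.1
    rw [nu]; field_simp
  · rintro ⟨u⟩ ⟨v⟩
    have e := h.KK_eq (h.le u.2.1) u.2.2 (h.le_c1 u.2.1) (h.le v.2.1)
    have : (Quot.mk (sd W) u = Quot.mk (sd W) v) ↔ IsConj u.1 v.1 :=
      ⟨fun e => Quotient.exact e, fun e => Quotient.sound e⟩
    refine Eq.trans ?_ (e.trans (by
      by_cases k : IsConj u.1 v.1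
      · exact (if_pos k).trans ((if_pos (this.2 k)).trans (Complex.ofReal_natCast _)).symm
      · exact (if_neg k).trans (if_neg (mt this.1 k)).symm))
    rw [KK, ← Finset.sum_coe_sort (B0 p G)]
    refine Finset.sum_congr rfl fun χ _ => ?_
    change _ * (χ.1.1 _ / χ.1.1 _) * conj (χ.1.1 _ / χ.1.1 _) = _
    have := deg_ne χ.1
    rw [nu, map_div₀, c1]; field_simp
  · rintro ⟨u⟩ ⟨v⟩ huv
    have k : ∀ ab : G × G, ∃ c : Quotient (sd W), ∀ χ : B0 p G,
        χ.1.1 (ab.1 * u * ab.1⁻¹ * (ab.2 * v * ab.2⁻¹)) / χ.1.1 1 = phi p W c χ := fun ab => by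
      have ex : IsConj u.1 (ab.1 * u * ab.1⁻¹) := isConj_iff.2 ⟨_, rfl⟩
      have ey : IsConj v.1 (ab.2 * v * ab.2⁻¹) := isConj_iff.2 ⟨_, rfl⟩
      obtain ⟨x0, x1, y0, y1, e1, e2, s, -⟩ := h.pair hc u.2.1 u.2.2 v.2.1 v.2.2 ex ey
      have n : x0 * y0 ≠ 1 := fun e => huv (Quotient.sound (by
        change IsConj v.1 u.1⁻¹
        refine (ey.trans e2).trans ?_
        rw [eq_inv_of_mul_eq_one_right e]
        exact (isConj_inv (ex.trans e1)).symm))
      exact ⟨Quotient.mk _ ⟨_, mul_mem x1 y1, n⟩, fun χ => by rw [h.val_sec s n χ.2]; rfl⟩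
    choose c hc using k
    refine ⟨fun w => ((Finset.univ.filter fun y => c y = w).card : ℝ) / (Nat.card G : ℝ) ^ 2,
      fun w => by positivity, fun χ => ?_⟩
    have e := sum_fib c fun w => phi p W w χ
    simp only [← hc, ← Finset.sum_div, sum2] at e
    push_cast
    simp only [div_mul_eq_mul_div, ← Finset.sum_div, ← e]
    change χ.1.1 _ / χ.1.1 _ * (χ.1.1 _ / χ.1.1 _) = _
    have := deg_ne χ.1
    have := H8.card_ne_zero_complex (G := G)
    field_simp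
  · classical
    have e1 := Nat.card_le_card_of_surjective _ (Quotient.mk_surjective (s := sd W))
    have e2 : Nat.card {w : G // w ∈ W ∧ w ≠ 1} < Nat.card P :=
      Set.ncard_lt_ncard (s := {w : G | w ∈ W ∧ w ≠ 1}) (t := P)
        ⟨fun w hw => h.le hw.1, fun k => (k (one_mem P)).2 rfl⟩
    rw [Nat.card_eq_fintype_card] at e1
    exact_mod_cast e1.trans_lt e2

theorem SW.nonreal [IsSimpleGroup G] (hG : ¬ IsMulCommutative G) (h : SW p P W) (hc : PS p G)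
    (hu : u ∈ W) (u1 : u ≠ 1) (hn : ∀ w ∈ W, w ≠ 1 → ¬ IsConj w w⁻¹) : False := by
  classical
  have := Fintype.ofFinite (Quotient (sd W))
  refine (h.alg hG hc).nonreal (Quotient.mk _ ⟨u, hu, u1⟩) ?_
  rintro ⟨w⟩ e
  exact hn w w.2.1 w.2.2 (IsConj.symm (Quotient.exact e))

theorem SW.real [IsSimpleGroup G] (hG : ¬ IsMulCommutative G) (h : SW p P W) (hc : PS p G)
    (hu : u ∈ W) (u1 : u ≠ 1) (hv : v ∈ W) (v1 : v ≠ 1) (huv : ¬ IsConj u v)
    (hn : ∀ w ∈ W, IsConj w⁻¹ w) (h4 : 4 ≤ Nat.card P) : False := by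
  classical
  have := Fintype.ofFinite (Quotient (sd W))
  refine (h.alg hG hc).real ?_ (by exact_mod_cast h4) (u := Quotient.mk _ ⟨u, hu, u1⟩)
    (v := Quotient.mk _ ⟨v, hv, v1⟩) fun e => huv (Quotient.exact e)
  rintro ⟨w⟩
  exact Quotient.sound (hn w w.2.1)

end GSz
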