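import Cfsg.Agent.GSz.A3

/-! The case of an odd prime. -/

set_option autoImplicit false
set_option linter.unusedVariables false
set_option linter.unusedSectionVars false

namespace GSz

open Cfsg Subgroup FT H4 H5 GW
open L (PElt Reg B0 KK)
open H7 (NPC)
open H8 (deg deg_eq deg_pos)
open scoped ComplexConjugate

variable {G : Type*} [Group G] [Fintype G] {p : ℕ} [hp : Fact p.Prime]
  {P W H S : Subgroup G} {x y g w u v : G} {χ : IrrCharacter G}

theorem npc_fus (h : NPC p H) (hS : IsSylowOf p S H) (hg : g ∈ H) (hx : x ∈ S)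
    (hy : g * x * g⁻¹ ∈ S) : ∃ s ∈ S, s * x * s⁻¹ = g * x * g⁻¹ := by
  obtain ⟨N, h1, h2, h3, h4⟩ := h
  obtain ⟨o, ho, s, hs, rfl⟩ := (H7.mem_sup_of_le_normalizer_left (hS.le.trans h2)).1
    (H7.le_sup_sylow h2 h4 hS hg)
  refine ⟨s, hs, ?_⟩
  have h5 := mul_mem (mul_mem hs hx) (inv_mem hs)
  have h6 : o * s * x * (o * s)⁻¹ * (s * x * s⁻¹)⁻¹ ∈ N ⊓ S := ⟨H5.mem_of_eq
    (mul_mem ho (cmem (h2 (hS.le h5)) (inv_mem ho))) (by group), S.mul_mem hy (S.inv_mem h5)⟩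
  rw [eq_bot_of_pGroup_coprime (hS.isPGroup.to_le inf_le_right)
    (Nat.Coprime.coprime_dvd_left (card_dvd_of_le inf_le_left) h3), mem_bot, mul_inv_eq_one] at h6
  exact h6.symm

theorem deg_le_inner {A : Type*} [Group A] [Fintype A] [IsMulCommutative A] {θ : A → ℂ}
    (hθ : IsCharacter A θ) {d : ℕ} (hd : θ 1 = d) : (Nat.card A : ℝ) * d ≤ ∑ a, ‖θ a‖ ^ 2 := by
  obtain ⟨c, h1, h2⟩ := H8.char_exists_coeff hθ
  have e1 := H8.classInner_eq_sum_int (H8.char_isClassFunction hθ) (c := fun χ => (c χ : ℤ))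
    (d := fun χ => (c χ : ℤ)) (fun χ => by rw [h1]; simp) (fun χ => by rw [h1]; simp)
  have e2 : d = ∑ χ, c χ := by
    have := congrFun h2 1
    simp only [hd, Finset.sum_apply, Pi.smul_apply, H8.irr_apply_one_of_comm (Subtype.prop _),
      smul_eq_mul, mul_one] at this
    exact_mod_cast this
  have e3 : ∑ a, ‖θ a‖ ^ 2 = (Nat.card A : ℝ) * ∑ χ, (c χ : ℝ) * c χ := by
    rw [classInner, inv_mul_eq_iff_eq_mul₀ H8.card_ne_zero_complex] at e1
    simp only [Complex.mul_conj'] at e1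
    exact_mod_cast e1
  rw [e3, e2]
  refine mul_le_mul_of_nonneg_left ?_ (by positivity)
  exact_mod_cast Finset.sum_le_sum fun χ _ => Nat.le_mul_self (c χ)

theorem num_bound {N q d m n : ℤ} (hq : 2 ≤ q) (hN : 0 < N) (h1 : d - m = q * n) (h2 : m < d)
    (h3 : m ^ 2 ≤ N) (h4 : N * d ≤ d ^ 2 + (q - 1) * N) : 2 * m ≤ d := by
  by_contra hc
  have n1 : 1 ≤ n := by
    by_contra k
    nlinarith
  have a1 : q ≤ d - m := by nlinarith
  have a2 : d ^ 2 < 4 * N := by nlinarith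
  have a3 : d - q + 1 < 4 := by
    by_contra k
    nlinarith
  omega

namespace SW

variable (h : SW p P W)
include h

theorem bessel (hab : P ≤ Cen P) (hW : ∀ x ∈ P, x ^ p = 1 → x ∈ W) [Fintype P]
    (hχ : χ ∈ B0 p G) :
    ∑ x : P, ‖χ.1 x‖ ^ 2 ≤ ‖χ.1 1‖ ^ 2 + ((Nat.card W : ℝ) - 1) * Nat.card P := by
  classical
  have hc : ∀ x ∈ P, P ≤ Cen1 x := fun x hx => cen_iff_le.1 (hab hx)
  set T := (Finset.univ : Finset P).erase 1
  have hT : ∀ x ∈ T, (x : G) ≠ 1 := fun x hx e => (Finset.mem_erase.1 hx).1 (Subtype.ext e)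
  rw [← Finset.add_sum_erase _ _ (Finset.mem_univ (1 : P)), OneMemClass.coe_one,
    add_le_add_iff_left]
  set t := ∑ x ∈ T, ‖χ.1 x‖ ^ 2 with ht
  have cl : ∀ x ∈ T, ((T.filter fun y : P => IsConj (x : G) y).card : ℝ) ≤ Nat.card W - 1 :=
    fun x hx => by
    obtain ⟨n, hn⟩ := exists_ord h.syl.isPGroup x.2 (hT x hx)
    have o : ∀ y : P, IsConj (x : G) y → orderOf ((y : G) ^ n) = p := fun y e => by
      obtain ⟨c, e⟩ := isConj_iff.1 e
      rw [← e, conj_pow, oconj, hn]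
    have := Finset.card_le_card_of_injOn (s := T.filter fun y : P => IsConj (x : G) y)
      (t := ((W : Set G).toFinset).erase 1) (fun y => (y : G) ^ n) (fun y hy => by
        have := o y (Finset.mem_filter.1 hy).2
        refine Finset.mem_coe.2 (Finset.mem_erase.2 ⟨fun e => ?_, Set.mem_toFinset.2
          (hW _ (pow_mem y.2 n) (this ▸ pow_orderOf_eq_one _))⟩)
        rw [show (y : G) ^ n = 1 from e, orderOf_one] at this
        exact hp.out.one_lt.ne this) (fun y hy z hz e => by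
        have y1 := (Finset.mem_filter.1 hy).2
        obtain ⟨c, e1⟩ := isConj_iff.1 (y1.symm.trans (Finset.mem_filter.1 hz).2)
        replace e : (y : G) ^ n = (z : G) ^ n := e
        obtain ⟨s, hs, e2⟩ := npc_fus (h.npc _ (o y y1))
          (h.syl.of_le (hc _ (pow_mem y.2 n)) le_top) (g := c)
          (c1'.2 (by rw [← conj_pow, e1, e])) y.2 (e1 ▸ z.2)
        exact Subtype.ext (by rw [← e1, ← e2, c1'.1 (hc _ y.2 hs)]))
    rw [Finset.card_erase_of_mem (by simp), Set.toFinset_card, ← Nat.card_eq_fintype_card] at this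
    have k : 1 ≤ Nat.card W := Nat.card_pos
    calc _ ≤ ((Nat.card W - 1 : ℕ) : ℝ) := by exact_mod_cast this
      _ = _ := by push_cast [k]; rfl
  let v : IrrCharacter G → ℂ := fun ψ => ∑ x ∈ T, conj (χ.1 x) * ψ.1 x
  have e1 : ∑ ψ ∈ B0 p G, v ψ * conj (v ψ) = ∑ x ∈ T, ((‖χ.1 x‖ ^ 2 * Nat.card P *
      (T.filter fun y : P => IsConj (x : G) y).card : ℝ) : ℂ) := by
    simp only [v, map_sum, map_mul, Complex.conj_conj, Finset.sum_mul_sum]
    rw [Finset.sum_comm]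
    refine Finset.sum_congr rfl fun x hx => ?_
    rw [Finset.sum_comm]
    have : ∀ y ∈ T, ∑ ψ ∈ B0 p G, conj (χ.1 x) * ψ.1 x * (χ.1 y * conj (ψ.1 y)) =
        if IsConj (x : G) y then ((‖χ.1 x‖ ^ 2 * Nat.card P : ℝ) : ℂ) else 0 := fun y hy => by
      have e := h.KK_eq x.2 (hT x hx) (hc _ x.2) y.2
      calc _ = conj (χ.1 x) * χ.1 y * KK p (x : G) y := by
            rw [KK, Finset.mul_sum]; exact Finset.sum_congr rfl fun ψ _ => by ring
        _ = _ := by
            rw [e]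
            split_ifs with k
            · rw [← val_conj χ k, Complex.conj_mul']; push_cast; rfl
            · simp
    rw [Finset.sum_congr rfl this, ← Finset.sum_filter, Finset.sum_const, nsmul_eq_mul]
    push_cast; ring
  have e2 : ∑ ψ ∈ B0 p G, ‖v ψ‖ ^ 2 = ∑ x ∈ T, (‖χ.1 x‖ ^ 2 * Nat.card P *
      (T.filter fun y : P => IsConj (x : G) y).card : ℝ) := by
    simp only [Complex.mul_conj'] at e1
    exact_mod_cast e1
  have e3 : ‖v χ‖ ^ 2 = t ^ 2 := by
    have : v χ = t := by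
      simp only [v, ht, Complex.conj_mul']; push_cast; rfl
    rw [this, Complex.norm_real, Real.norm_eq_abs, sq_abs]
  have e4 : t ^ 2 ≤ t * ((Nat.card W - 1) * Nat.card P) := by
    rw [← e3]
    refine (Finset.single_le_sum (f := fun ψ => ‖v ψ‖ ^ 2) (fun _ _ => by positivity) hχ).trans ?_
    rw [e2, ht, Finset.sum_mul]
    refine Finset.sum_le_sum fun x hx => ?_
    rw [mul_assoc, mul_comm (Nat.card P : ℝ)]
    exact mul_le_mul_of_nonneg_left (mul_le_mul_of_nonneg_right (cl x hx) (by positivity))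
      (by positivity)
  have t0 : 0 ≤ t := Finset.sum_nonneg fun _ _ => by positivity
  have k : (1 : ℝ) ≤ Nat.card W := by exact_mod_cast (Nat.card_pos : 0 < Nat.card W)
  rcases t0.eq_or_lt with e | e
  · rw [← e]; exact mul_nonneg (by linarith) (by positivity)
  · rw [sq] at e4
    exact le_of_mul_le_mul_left e4 e

omit h in
theorem int_val (hu : u ∈ W) (u1 : u ≠ 1) (h1 : ∀ w ∈ W, w ≠ 1 → IsConj u w)
    (χ : IrrCharacter G) : ∃ m n : ℤ, χ.1 u = m ∧ deg χ - m = Nat.card W * n := by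
  classical
  obtain ⟨n, hn⟩ := H8.char_classInner_nat (H8.char_restrict (H8.irr_isCharacter χ.2) W)
    H8.char_one
  rw [classInner, inv_mul_eq_iff_eq_mul₀ H8.card_ne_zero_complex,
    ← Finset.add_sum_erase _ _ (Finset.mem_univ (1 : W)), Finset.sum_congr rfl
      (g := fun _ => χ.1 u) fun w hw => by
        rw [val_conj χ (h1 w w.2 fun e => (Finset.mem_erase.1 hw).1 (Subtype.ext e))]; simp,
    Finset.sum_const, Finset.card_erase_of_mem (Finset.mem_univ _), Finset.card_univ,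
    ← Nat.card_eq_fintype_card] at hn
  have k : 1 < Nat.card W := one_lt_card_iff_ne_bot _ |>.2 fun e => u1 (mem_bot.1 (e ▸ hu))
  simp only [OneMemClass.coe_one, deg_eq, Pi.one_apply, map_one, mul_one, nsmul_eq_mul] at hn
  push_cast [k.le] at hn
  have q0 : ((Nat.card W : ℤ) - 1) ≠ 0 := by omega
  have q1 : ((Nat.card W : ℂ) - 1) ≠ 0 := by exact_mod_cast q0
  obtain ⟨m, hm⟩ := H8.int_dvd_of_isIntegral_div (a := Nat.card W * n - deg χ) q0 (by
    convert H8.char_isIntegral (H8.irr_isCharacter χ.2) u using 1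
    push_cast
    rw [div_eq_iff q1]
    linear_combination -hn)
  have hm' : (Nat.card W : ℂ) * n - deg χ = (Nat.card W - 1) * m := by exact_mod_cast hm
  exact ⟨m, n - m, mul_left_cancel₀ q1 (by linear_combination hn + hm'), by linarith⟩

theorem KK_sec (hu : u ∈ W) (u1 : u ≠ 1) (h1 : ∀ w ∈ W, w ≠ 1 → IsConj u w) (hw : w ∈ W)
    (hs : Sec p g w) : 0 ≤ (KK p g u).re ∧ (w ≠ 1 → (KK p g u).re = Nat.card P) := by
  by_cases e : w = 1
  · obtain ⟨a, s, h1, h2, h3, rfl, h5⟩ := hs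
    have := L.KK_eq_zero h1 h2 h3 (h.pelt hu) L.Reg_one (Commute.one_right u)
      fun k => u1 (by simpa [e] using k.symm.trans h5)
    rw [mul_one] at this
    simp [this, e]
  · have : KK p g u = Nat.card P := by
      rw [← h.KK_self (h.le hu) u1 (h.le_c1 hu)]
      exact Finset.sum_congr rfl fun χ hχ => by rw [h.val_sec hs e hχ, ← val_conj χ (h1 w hw e)]
    simp [this]

theorem one_class [IsSimpleGroup G] (hG : ¬ IsMulCommutative G) (hc : PS p G) (hp2 : p ≠ 2)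
    (hab : P ≤ Cen P) (hW : ∀ x ∈ P, x ^ p = 1 → x ∈ W) (hu : u ∈ W) (u1 : u ≠ 1)
    (h1 : ∀ w ∈ W, w ≠ 1 → IsConj u w) : False := by
  classical
  choose m n hm hn using int_val hu u1 h1
  have d0 : ∀ χ : IrrCharacter G, (0 : ℝ) < deg χ := fun χ => by exact_mod_cast deg_pos χ
  have s1 : ∑ χ ∈ B0 p G, m χ ^ 2 = Nat.card P := by
    have := h.KK_self (h.le hu) u1 (h.le_c1 hu)
    simp only [KK, hm, map_intCast, ← sq] at this
    exact_mod_cast this
  have s2 : ∑ χ ∈ B0 p G, m χ * deg χ = 0 := by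
    have := KK_one (h.pelt hu) u1
    simp only [hm, deg_eq] at this
    exact_mod_cast this
  have s3 : ∀ v, IsConj u v → ∑ ab : G × G,
      (KK p (ab.1 * u * ab.1⁻¹ * (ab.2 * v * ab.2⁻¹)) u).re =
      (Nat.card G : ℝ) ^ 2 * ∑ χ ∈ B0 p G, (m χ : ℝ) ^ 3 / deg χ := fun v e => by
    rw [← Complex.re_sum]
    simp only [KK]
    rw [Finset.sum_comm]
    simp only [← Finset.sum_mul, sum2, ← val_conj _ e, hm, deg_eq, map_intCast]
    rw [← Complex.ofReal_re (_ * ∑ χ ∈ B0 p G, _)]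
    congr 1
    push_cast
    rw [Finset.mul_sum]
    exact Finset.sum_congr rfl fun χ _ => by ring
  have s4 : (Nat.card P : ℝ) ≤ 2 * ∑ χ ∈ B0 p G, (m χ : ℝ) ^ 3 / deg χ := by
    have g0 : (0 : ℝ) < (Nat.card G : ℝ) ^ 2 := by
      have : 0 < Nat.card G := Nat.card_pos
      positivity
    refine le_of_mul_le_mul_left ?_ g0
    rw [two_mul, mul_add]
    nth_rw 1 [← s3 u (IsConj.refl u)]
    rw [← s3 u⁻¹ (h1 _ (inv_mem hu) (inv_ne_one.2 u1)), ← Finset.sum_add_distrib]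
    refine le_trans (le_of_eq ?_) (Finset.card_nsmul_le_sum _ _ (Nat.card P : ℝ) fun ab _ => ?_)
    · simp [sq]
    · obtain ⟨x0, x1, y0, y1, e1, e2, t1, t2⟩ := h.pair hc hu u1 hu u1
        (isConj_iff.2 ⟨ab.1, rfl⟩) (isConj_iff.2 ⟨ab.2, rfl⟩)
      have k1 := h.KK_sec hu u1 h1 (mul_mem x1 y1) t1
      have k2 := h.KK_sec hu u1 h1 (mul_mem x1 (inv_mem y1)) t2
      rw [conj_inv] at k2
      by_cases e : x0 * y0 = 1
      · have : x0 * y0⁻¹ ≠ 1 := fun e' => by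
          have y2 : y0 ≠ 1 := fun k => u1 (by simpa [k] using e2)
          rw [mul_inv_eq_one.1 e', ← sq] at e
          have := orderOf_dvd_of_pow_eq_one e
          rw [h.ord y1 y2] at this
          exact hp2 ((Nat.prime_dvd_prime_iff_eq hp.out Nat.prime_two).1 this)
        linarith [k2.2 this, k1.1]
      · linarith [k1.2 e, k2.1]
  have hP : IsMulCommutative P := ⟨⟨fun a b => Subtype.ext (GW.cen.1 (hab a.2) b b.2)⟩⟩
  have b1 : ∀ χ ∈ B0 p G, χ ≠ L.triv G → 2 * m χ ≤ deg χ := fun χ hχ ht => by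
    have a1 := (deg_le_inner (H8.char_restrict (H8.irr_isCharacter χ.2) P) (d := deg χ)
      (deg_eq χ)).trans (h.bessel hab hW hχ)
    have a2 := norm_lt hG ht u1
    rw [hm, deg_eq, Complex.norm_intCast, Complex.norm_natCast] at a2
    rw [deg_eq, Complex.norm_natCast] at a1
    refine num_bound (N := Nat.card P) (q := Nat.card W) ?_ (by exact_mod_cast Nat.card_pos)
      (hn χ) (by exact_mod_cast (le_abs_self _).trans_lt a2)
      (s1 ▸ Finset.single_le_sum (f := fun χ => m χ ^ 2) (fun _ _ => sq_nonneg _) hχ)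
      (by exact_mod_cast a1)
    exact_mod_cast (one_lt_card_iff_ne_bot _).2 fun e => u1 (mem_bot.1 (e ▸ hu))
  have t1 : m (L.triv G) = 1 := by
    exact_mod_cast ((L.triv_apply u).symm.trans (hm (L.triv G))).symm
  have t2 : deg (L.triv G) = 1 := by
    exact_mod_cast ((L.triv_apply 1).symm.trans (deg_eq (L.triv G))).symm
  obtain ⟨ψ, hψ, hneg⟩ : ∃ ψ ∈ B0 p G, m ψ < 0 := by
    by_contra k
    push Not at k
    have := Finset.single_le_sum (f := fun χ => m χ * deg χ)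
      (fun χ hχ => mul_nonneg (k χ hχ) (by positivity)) (L.triv_mem_B0 (p := p))
    simp only [s2, t1, t2] at this
    omega
  have ψ1 : ψ ≠ L.triv G := fun e => by rw [e, t1] at hneg; omega
  have s5 : ∑ χ ∈ B0 p G, ((m χ : ℝ) ^ 2 / 2 - (m χ : ℝ) ^ 3 / deg χ) ≤ 0 := by
    have : ∑ χ ∈ B0 p G, (m χ : ℝ) ^ 2 = Nat.card P := by exact_mod_cast s1
    rw [Finset.sum_sub_distrib, ← Finset.sum_div, this]
    linarith
  rw [← Finset.add_sum_erase _ _ L.triv_mem_B0,
    ← Finset.add_sum_erase _ _ (Finset.mem_erase.2 ⟨ψ1, hψ⟩), t1, t2] at s5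
  have s6 : 0 ≤ ∑ χ ∈ ((B0 p G).erase (L.triv G)).erase ψ,
      ((m χ : ℝ) ^ 2 / 2 - (m χ : ℝ) ^ 3 / deg χ) := Finset.sum_nonneg fun χ hχ => by
    have k := Finset.mem_erase.1 (Finset.mem_erase.1 hχ).2
    have : 2 * (m χ : ℝ) ≤ deg χ := by exact_mod_cast b1 χ k.2 k.1
    rw [sub_nonneg, div_le_div_iff₀ (d0 χ) two_pos]
    nlinarith [sq_nonneg (m χ : ℝ)]
  have s7 : (m ψ : ℝ) ≤ -1 := by exact_mod_cast (by omega : m ψ ≤ -1)
  have s8 : (m ψ : ℝ) ^ 3 / deg ψ < 0 := 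
    div_neg_of_neg_of_pos (by nlinarith [sq_nonneg (m ψ : ℝ)]) (d0 ψ)
  simp only [Int.cast_one, Nat.cast_one] at s5
  nlinarith

theorem odd [IsSimpleGroup G] (hG : ¬ IsMulCommutative G) (hc : PS p G) (hp2 : p ≠ 2)
    (hu : u ∈ W) (u1 : u ≠ 1) : False := by
  by_cases hn : ∀ w ∈ W, w ≠ 1 → ¬ IsConj w w⁻¹
  · exact h.nonreal hG hc hu u1 hn
  push Not at hn
  obtain ⟨w, hw, w1, e⟩ := hn
  obtain ⟨i, hi⟩ := h.inverts hp2 hw w1 e
  have cm : ∀ x ∈ P, ∀ y ∈ P, x * y = y * x := fun x hx y hy => by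
    rw [← inv_inj, ← hi _ (mul_mem hx hy), mul_inv_rev, ← hi x hx, ← hi y hy]; group
  have hab : P ≤ Cen P := fun x hx => GW.cen.2 (cm x hx)
  let V : Subgroup G :=
    { carrier := {x | x ∈ P ∧ x ^ p = 1}
      one_mem' := ⟨one_mem _, one_pow _⟩
      inv_mem' := fun hx => ⟨inv_mem hx.1, by rw [inv_pow, hx.2, inv_one]⟩
      mul_mem' := fun ha hb => ⟨mul_mem ha.1 hb.1, by
        rw [Commute.mul_pow (cm _ ha.1 _ hb.1), ha.2, hb.2, mul_one]⟩ }
  have h' : SW p P V := ⟨h.syl, fun x hx => hx.1, fun x hx => hab hx.1, fun x hx => hx.2,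
    fun x hx g hg => ⟨hg, by rw [conj_pow, hx.2]; group⟩, h.npc⟩
  have hu' : u ∈ V := ⟨h.le hu, h.exp u hu⟩
  by_cases h1 : ∀ w ∈ V, w ≠ 1 → IsConj u w
  · exact h'.one_class hG hc hp2 hab (fun x h1 h2 => ⟨h1, h2⟩) hu' u1 h1
  push Not at h1
  obtain ⟨v, hv, v1, huv⟩ := h1
  have hr : ∀ w ∈ V, IsConj w⁻¹ w := fun w hw => (isConj_iff.2 ⟨i, hi w hw.1⟩).symm
  refine h'.real hG hc hu' u1 hv v1 huv hr ?_
  classical
  have uu : u ≠ u⁻¹ := fun e => by
    have := orderOf_dvd_of_pow_eq_one (x := u) (n := 2) (by rw [sq]; nth_rw 1 [e]; simp)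
    rw [h.ord hu u1] at this
    exact hp2 ((Nat.prime_dvd_prime_iff_eq hp.out Nat.prime_two).1 this)
  have a1 : u ≠ v := fun e => huv (e ▸ IsConj.refl u)
  have a2 : u⁻¹ ≠ v := fun e => huv (e ▸ (hr u hu').symm)
  have : ({1, u, u⁻¹, v} : Set G).ncard = 4 := by
    rw [Set.ncard_insert_of_notMem (by simp [u1, u1.symm, v1.symm]),
      Set.ncard_insert_of_notMem (by simp [uu, a1]), Set.ncard_pair a2]
  rw [← this]
  refine Set.ncard_le_ncard (t := (P : Set G)) ?_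
  rintro x (rfl | rfl | rfl | rfl)
  exacts [one_mem _, hu'.1, inv_mem hu'.1, hv.1]

end SW

end GSz
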